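import Cfsg.Agent.Blk.RealAbel
import Cfsg.Agent.Blk.Invol
import Cfsg.Agent.Grp.Baer
import Cfsg.Agent.FT.I.FTthm

/-! Galois fixed characters of simple groups with abelian Sylow `2`-subgroups. -/

set_option autoImplicit false

namespace Cfsg.FT

universe u

theorem app4523 [FTthm.{u}] {S : Type u} [Group S] [Finite S] [IsSimpleGroup S]
    (hna : ¬ IsMulCommutative S) (P : Sylow 2 S) (hP : IsMulCommutative P) (M : Ideal AlgInt)
    (hM : IsPModular 2 M) (k : ℕ) (hk₁ : ∀ g : S, (∃ j : ℕ, orderOf g = 2 ^ j) → g ^ k = g)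
    (hk₂ : ∀ g : S, Odd (orderOf g) → g ^ k = g⁻¹) :
    (∃ χ₁ : IrrCharacter S, Even (charDegree (χ₁ : S → ℂ)) ∧
      ∀ g : S, (χ₁ : S → ℂ) (g ^ k) = (χ₁ : S → ℂ) g) ∧ ∃ χ₂ ∈ principalBlock M S,
      (χ₂ : S → ℂ) ≠ (fun _ => 1) ∧ ∀ g : S, (χ₂ : S → ℂ) (g ^ k) = (χ₂ : S → ℂ) g := by
  have := Fact.mk Nat.prime_two
  have h2 : 2 ∣ Nat.card S := by
    by_contra h
    have := FTthm.out S (Nat.odd_iff.2 (Nat.two_dvd_ne_zero.1 h))
    exact hna ⟨⟨IsSimpleGroup.comm_iff_isSolvable.2 this⟩⟩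
  have hk : ∀ g : S, g ^ k = pPart 2 g * (pRegPart 2 g)⁻¹ := fun g => by
    conv_lhs => rw [← pPart_mul_pRegPart 2 g]
    rw [(commute_pPart_pRegPart 2 g).mul_pow, hk₁ _ (exists_orderOf_pPart g),
      hk₂ _ (Nat.odd_iff.2 (Nat.two_dvd_ne_zero.1 (not_dvd_orderOf_pRegPart g)))]
  have hab : ∀ Q : Subgroup S, IsPGroup 2 Q → IsMulCommutative Q := fun Q hQ => by
    obtain ⟨R, hR⟩ := hQ.exists_le_sylow
    have : IsMulCommutative R := ⟨⟨fun a b => (P.equiv R).symm.injective (by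
      rw [map_mul, map_mul, hP.is_comm.comm])⟩⟩
    exact ⟨⟨fun a b => Subtype.ext (congrArg Subtype.val (this.is_comm.comm ⟨a, hR a.2⟩ ⟨b, hR b.2⟩) :)⟩⟩
  constructor
  · obtain ⟨t, ht⟩ := exists_prime_orderOf_dvd_card' 2 h2
    have tt : t * t = 1 := by rw [← sq, ← ht, pow_orderOf_eq_one]
    obtain ⟨g, hg⟩ : ∃ g : S, pRegPart 2 (t * (g * t * g⁻¹)) ≠ 1 := by
      by_contra! h
      have h1 : t ∈ pCore 2 S := mem_pCore_of_forall_conj fun g => by
        have e := conj_eq_inv_of_mul_involutions tt (b := g * t * g⁻¹) (by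
          rw [conj_mul, tt, mul_one, mul_inv_cancel])
        refine ⟨_, (isPGroup_zpowers_iff.2 (pRegPart_eq_one_iff.1 (h g))).to_sup_of_normal_left'
          (isPGroup_zpowers_iff.2 ⟨1, by rw [ht, pow_one]⟩) (Subgroup.zpowers_le.2
            (Subgroup.mem_normalizer_fintype fun d hd => ?_)),
          Subgroup.mem_sup_right (Subgroup.mem_zpowers t), ?_⟩
        · obtain ⟨i, rfl⟩ := Subgroup.mem_zpowers_iff.1 hd
          rw [← conj_zpow, e]
          exact Subgroup.zpow_mem _ (Subgroup.inv_mem _ (Subgroup.mem_zpowers _)) i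
        · exact (Subgroup.mul_mem_cancel_left _ (Subgroup.mem_sup_right
            (Subgroup.mem_zpowers t))).1 (Subgroup.mem_sup_left (Subgroup.mem_zpowers _))
      rcases (pCore_normal 2 S).eq_bot_or_eq_top with h3 | h3
      · rw [h3, Subgroup.mem_bot] at h1
        simp [h1] at ht
      · have := hab _ (isPGroup_pCore 2 S)
        rw [h3] at this
        exact hna ⟨⟨fun a b => congrArg Subtype.val (this.is_comm.comm ⟨a, trivial⟩ ⟨b, trivial⟩)⟩⟩
    obtain ⟨χ, h1, h3⟩ := hM.exists_pow_fixed_notMem k _ S rfl hab hk _ hg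
      (not_dvd_orderOf_pRegPart _) (isConj_iff.2 ⟨t, by
        rw [← pRegPart_conj, conj_eq_inv_of_mul_involutions tt (by
          rw [conj_mul, tt, mul_one, mul_inv_cancel]), pRegPart_inv]⟩)
    refine ⟨χ, even_iff_two_dvd.2 (by_contra fun h => h1 (hM.mem_principalBlock_of_real h
      (hM.sameBlock_of_eq_on_pRegular fun g hg => ?_))), h3⟩
    rw [χ.cconj_apply', ← h3 g, hk₂ g (Nat.odd_iff.2 (Nat.two_dvd_ne_zero.1 hg))]
  · obtain ⟨χ, h1, h3, h4⟩ := hM.exists_principal_pow_fixed h2 (coprime_card_of_pow_eq hk) fun g => by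
      obtain ⟨e1, e2⟩ := pPart_pRegPart_unique (commute_pPart_pRegPart 2 g).inv_right
        (exists_orderOf_pPart g) (by rw [orderOf_inv]; exact not_dvd_orderOf_pRegPart g)
      rw [hk (g ^ k), hk g, e1, e2, inv_inv, pPart_mul_pRegPart]
    exact ⟨χ, h1, fun h => h3 (Subtype.ext h), h4⟩

end Cfsg.FT
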