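import Cfsg.Agent.Blk.DefectZero
import Cfsg.Agent.Grp.PSolvable
import Cfsg.Agent.CT.Burnside
import Cfsg.Agent.S4743
import Cfsg.Agent.FT.I.FTthm

/-! Transitive groups of prime power degree with odd centralizers of `p`-elements. -/

set_option autoImplicit false

namespace Cfsg.FT

open scoped ComplexConjugate Pointwise

universe u v

variable {G : Type u} [Group G] [Finite G] {p : ℕ}

theorem app4745_dvd_count (hp : p.Prime) (hno : ¬ ∃ χ : IrrCharacter G,
      (charDegree χ.1).factorization p = (Nat.card G).factorization p) {a b : G}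
    (ha : ¬ p ∣ Nat.card (Subgroup.centralizer ({a} : Set G)))
    (hb : ¬ p ∣ Nat.card (Subgroup.centralizer ({b} : Set G))) (z : G) :
    p ∣ Nat.card {q : G × G // IsConj a q.1 ∧ IsConj b q.2 ∧ q.1 * q.2 = z} := by
  have h1 : ∀ χ : IrrCharacter G, ∃ m : ℕ, Nat.card G = charDegree χ.1 * (p * m) := by
    intro χ
    obtain ⟨q, hq⟩ := χ.charDegree_dvd_card
    have hq0 : q ≠ 0 := by
      rintro rfl
      exact Nat.card_pos.ne' (hq.trans (mul_zero _))
    have : p ∣ q := by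
      by_contra hn
      refine hno ⟨χ, ?_⟩
      rw [hq, Nat.factorization_mul χ.charDegree_pos.ne' hq0, Finsupp.add_apply,
        Nat.factorization_eq_zero_of_not_dvd hn, add_zero]
    obtain ⟨m, rfl⟩ := this
    exact ⟨m, hq⟩
  choose m hm using h1
  have h2 := card_isConj_mul_isConj_eq a b z
  set n := Nat.card {q : G × G // IsConj a q.1 ∧ IsConj b q.2 ∧ q.1 * q.2 = z}
  have hG : (Nat.card G : ℂ) ≠ 0 := Nat.cast_ne_zero.2 Nat.card_pos.ne'
  have ea := congrArg (Nat.cast : ℕ → ℂ) (Subgroup.centralizer ({a} : Set G)).card_mul_index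
  have eb := congrArg (Nat.cast : ℕ → ℂ) (Subgroup.centralizer ({b} : Set G)).card_mul_index
  push_cast at ea eb
  have h3 : (((n * Nat.card (Subgroup.centralizer ({a} : Set G)) *
      Nat.card (Subgroup.centralizer ({b} : Set G)) : ℕ) : ℤ) : ℂ) = ((p : ℤ) : ℂ) *
      ∑ χ : IrrCharacter G, (m χ : ℂ) * (χ.1 a * χ.1 b * conj (χ.1 z)) := by
    have h4 : (p : ℂ) * ∑ χ : IrrCharacter G, (m χ : ℂ) * (χ.1 a * χ.1 b * conj (χ.1 z)) =
        (Nat.card G : ℂ) * ∑ χ : IrrCharacter G, χ.1 a * χ.1 b * conj (χ.1 z) / χ.1 1 := by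
      rw [Finset.mul_sum, Finset.mul_sum]
      refine Finset.sum_congr rfl fun χ _ => ?_
      have h5 : (charDegree χ.1 : ℂ) ≠ 0 := Nat.cast_ne_zero.2 χ.charDegree_pos.ne'
      rw [χ.one_eq_charDegree, hm χ]
      push_cast
      field_simp
    push_cast
    rw [h4, h2]
    generalize ∑ χ : IrrCharacter G, χ.1 a * χ.1 b * conj (χ.1 z) / χ.1 1 = S
    field_simp
    linear_combination ((Nat.card (Subgroup.centralizer ({b} : Set G)) : ℂ) *
      (Subgroup.centralizer ({b} : Set G)).index * S) * ea + (Nat.card G : ℂ) * S * eb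
  have h4 := int_dvd_of_eq_mul_isIntegral (IsIntegral.sum _ fun χ _ =>
    (isIntegral_natCast _).mul (((χ.isIntegral a).mul (χ.isIntegral b)).mul
      (isIntegral_conj_complex (χ.isIntegral z)))) h3
  rw [Int.natCast_dvd_natCast, hp.dvd_mul, hp.dvd_mul] at h4
  tauto

theorem app4745_exists_mem_centralizer [Fact p.Prime] {P N : Subgroup G} (hP : IsPGroup p P)
    (hPN : P ≤ Subgroup.normalizer (N : Set G)) (h : p ∣ Nat.card N) :
    ∃ z ∈ N, z ∈ Subgroup.centralizer (P : Set G) ∧ orderOf z = p := by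
  obtain ⟨Q, hPQ, hQL, hQ, hQi⟩ := exists_le_sylowIn (H := N ⊔ P) hP le_sup_right
  have hQN : Q ≤ Subgroup.normalizer (N : Set G) :=
    hQL.trans (sup_le Subgroup.le_normalizer hPN)
  have hT : N ⊓ Q ≠ ⊥ := by
    intro h0
    have h1 := card_sup_of_disjoint hQN h0
    rw [← card_mul_relIndex (le_sup_right : Q ≤ N ⊔ Q), mul_comm (Nat.card N)] at h1
    have h2 := Nat.eq_of_mul_eq_mul_left Nat.card_pos h1
    refine hQi ?_
    rw [show N ⊔ P = N ⊔ Q from le_antisymm (sup_le_sup_left hPQ _) (sup_le le_sup_left hQL), h2]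
    exact h
  have h1 := inf_centralizer_ne_bot_of_isPGroup hP (hQ.to_inf_right (H := N)) (by
    intro x hx
    refine Subgroup.mem_normalizer_iff.2 fun y => ?_
    rw [Subgroup.mem_inf, Subgroup.mem_inf, ← Subgroup.mem_normalizer_iff.1 (hPN hx) y,
      ← Subgroup.mem_normalizer_iff.1 (Subgroup.le_normalizer (hPQ hx)) y]) hT
  obtain ⟨z, hz, hz'⟩ := exists_orderOf_eq_prime_of_dvd_card (dvd_card_of_isPGroup_of_ne_bot
    ((hQ.to_inf_right (H := N)).to_inf_left) h1)
  exact ⟨z, hz.1.1, hz.2, hz'⟩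

theorem app4745_le_of_coprime_index {N H : Subgroup G} [N.Normal]
    (h : (Nat.card N).Coprime H.index) : N ≤ H := by
  have h1 := card_sup_mul_card_inf (H := H) (N := N) (by rw [Subgroup.normalizer_eq_top]; exact le_top)
  rw [← card_mul_relIndex (le_sup_right : H ≤ N ⊔ H), mul_comm (Nat.card N), mul_assoc] at h1
  have h2 := Nat.eq_of_mul_eq_mul_left Nat.card_pos h1
  have h3 : H.relIndex (N ⊔ H) = 1 := Nat.eq_one_of_dvd_coprimes h ⟨_, h2.symm⟩
    ⟨_, (Subgroup.relIndex_mul_index (le_sup_right : H ≤ N ⊔ H)).symm⟩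
  exact le_sup_left.trans (Subgroup.relIndex_eq_one.1 h3)

section perm

variable {Ω : Type v} [MulAction G Ω] [MulAction.IsPretransitive G Ω] [hp : Fact p.Prime] {r : ℕ}
  (hΩ : Nat.card Ω = p ^ r)
include hΩ

theorem app4745_trans (P : Sylow p G) (α β : Ω) : ∃ y ∈ (P : Subgroup G), y • α = β := by
  obtain ⟨g, rfl⟩ := MulAction.exists_smul_eq G α β
  obtain ⟨a, ha, b, hb, rfl⟩ := exists_mul_eq_of_coprime_index (H := (P : Subgroup G))
    (K := MulAction.stabilizer G α) (by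
      rw [MulAction.index_stabilizer_of_transitive, hΩ]
      exact Nat.Coprime.pow_right _ ((hp.out.coprime_iff_not_dvd.2 P.not_dvd_index).symm)) g
  exact ⟨a, ha, by rw [mul_smul, MulAction.mem_stabilizer_iff.1 hb]⟩

variable [FaithfulSMul G Ω]

omit hp in
theorem app4745_pPrimeCore : pPrimeCore p G = ⊥ := by
  rw [eq_bot_iff]
  intro g hg
  refine Subgroup.mem_bot.2 (eq_of_smul_eq_smul fun α : Ω => ?_)
  rw [one_smul]
  refine app4745_le_of_coprime_index (N := pPrimeCore p G) (H := MulAction.stabilizer G α) ?_ hg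
  rw [MulAction.index_stabilizer_of_transitive, hΩ]
  exact (coprime_card_pPrimeCore p).pow_right _

theorem app4745_eq_one (P : Sylow p G) {g : G}
    (hg : g ∈ Subgroup.centralizer ((P : Subgroup G) : Set G)) {α : Ω} (h : g • α = α) : g = 1 := by
  refine eq_of_smul_eq_smul fun β : Ω => ?_
  obtain ⟨y, hy, rfl⟩ := app4745_trans hΩ P α β
  rw [one_smul, ← mul_smul, ← Subgroup.mem_centralizer_iff.1 hg y hy, mul_smul, h]

theorem app4745_centralizer_le (P : Sylow p G) [IsMulCommutative (P : Subgroup G)] :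
    Subgroup.centralizer ((P : Subgroup G) : Set G) ≤ P := by
  intro g hg
  obtain ⟨α⟩ : Nonempty Ω := (Nat.card_pos_iff.1 (hΩ ▸ pow_pos hp.out.pos r)).1
  obtain ⟨y, hy, h⟩ := app4745_trans hΩ P α (g • α)
  have := app4745_eq_one hΩ P (g := y⁻¹ * g) (α := α)
    (mul_mem (inv_mem (Subgroup.le_centralizer _ hy)) hg) (by rw [mul_smul, ← h, inv_smul_smul])
  rw [inv_mul_eq_one] at this
  exact this ▸ hy

theorem app4745_centralizer_le_normalizer [FTthm.{u}] (P : Sylow p G)
    [IsMulCommutative (P : Subgroup G)] {y : G} (hy : y ∈ (P : Subgroup G))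
    (hodd : Odd (Nat.card (Subgroup.centralizer ({y} : Set G)))) :
    Subgroup.centralizer ({y} : Set G) ≤ Subgroup.normalizer ((P : Subgroup G) : Set G) := by
  set C := Subgroup.centralizer ({y} : Set G)
  have hle : (P : Subgroup G) ≤ C := fun x hx =>
    Subgroup.mem_centralizer_singleton_iff.2 (setLike_mul_comm hx hy)
  have : MulAction.IsPretransitive C Ω := ⟨fun α β => by
    obtain ⟨x, hx, h⟩ := app4745_trans hΩ P α β
    exact ⟨⟨x, hle hx⟩, h⟩⟩
  have h1 := (IsPSolvable.of_isSolvable p (FTthm.out C hodd)).sylow_normal_of_comm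
    (app4745_pPrimeCore hΩ) (P.subtype hle)
    ⟨⟨fun a b => Subtype.ext (Subtype.ext (setLike_mul_comm (s := (P : Subgroup G)) a.2 b.2))⟩⟩
  rw [Sylow.coe_subtype, Subgroup.normal_subgroupOf_iff_le_normalizer hle] at h1
  exact h1

theorem app4745_mem_normalizer [FTthm.{u}] (P : Sylow p G)
    [IsMulCommutative (P : Subgroup G)] {y a : G} (hy : y ∈ (P : Subgroup G))
    (hodd : Odd (Nat.card (Subgroup.centralizer ({y} : Set G)))) (ha : a * y * a⁻¹ = y⁻¹) :
    a ∈ Subgroup.normalizer ((P : Subgroup G) : Set G) := by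
  have h1 : MulAut.conj a • (P : Subgroup G) ≤ Subgroup.normalizer ((P : Subgroup G) : Set G) := by
    refine le_trans (fun x hx => ?_) (app4745_centralizer_le_normalizer hΩ P hy hodd)
    rw [mem_conj_smul_iff] at hx
    have h2 := setLike_mul_comm hx (inv_mem hy)
    rw [Subgroup.mem_centralizer_singleton_iff, ← inv_inv y, ← ha]
    calc x * (a * y * a⁻¹)⁻¹ = a * (a⁻¹ * x * a * y⁻¹) * a⁻¹ := by group
      _ = _ := by rw [h2]; group
  have h2 := (inf_eq_left.2 h1).symm.trans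
    ((isPGroup_conj_smul P.isPGroup' a).inf_normalizer_sylow P)
  rw [left_eq_inf] at h2
  rw [← conj_smul_eq_iff_mem_normalizer]
  exact Subgroup.eq_of_le_of_card_ge h2 (card_conj_smul _ a).ge

variable (hp2 : p ≠ 2) (hC : ∀ g : G, g ≠ 1 → (∃ k : ℕ, orderOf g = p ^ k) →
    Odd (Nat.card (Subgroup.centralizer ({g} : Set G))))
  (hno : ¬ ∃ χ : IrrCharacter G, (charDegree χ.1).factorization p = (Nat.card G).factorization p)
include hp2 hC

omit [FaithfulSMul G Ω] [MulAction.IsPretransitive G Ω] hΩ hp2 in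
theorem app4745_h2p (g : G) : orderOf g ≠ 2 * p :=
  orderOf_ne_of_centralizer hp.out Nat.prime_two (fun g h1 h2 h3 =>
    (Nat.not_even_iff_odd.2 (hC g h1 h2)) (even_iff_two_dvd.2 h3)) g

omit [Finite G] [FaithfulSMul G Ω] [MulAction.IsPretransitive G Ω] hC in
theorem app4745_exists_fix {a : G} (ha : orderOf a = 2) : ∃ α : Ω, a • α = α := by
  have : Finite Ω := Nat.finite_of_card_ne_zero (hΩ ▸ (pow_pos hp.out.pos r).ne')
  have := Fact.mk Nat.prime_two
  obtain ⟨α, hα⟩ := (isPGroup_zpowers_iff.2 ⟨1, ha.trans (pow_one 2).symm⟩ :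
    IsPGroup 2 (Subgroup.zpowers a)).nonempty_fixed_point_of_prime_not_dvd_card Ω (by
      rw [hΩ]
      exact fun h => hp2 ((Nat.prime_dvd_prime_iff_eq Nat.prime_two hp.out).1
        (Nat.prime_two.dvd_of_dvd_pow h)).symm)
  exact ⟨α, hα ⟨a, Subgroup.mem_zpowers a⟩⟩

include hno

theorem app4745_fix_unique {s : G} (hs : orderOf s = 2) {α β : Ω} (hα : s • α = α)
    (hβ : s • β = β) : α = β := by
  obtain ⟨P⟩ := (inferInstance : Nonempty (Sylow p G))
  obtain ⟨a, hsa, ha⟩ := exists_conj_inverting_sylow hp2 (app4745_h2p hC) hno hs P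
  have := isMulCommutative_of_forall_conj_eq_inv ha
  obtain ⟨c, rfl⟩ := isConj_iff.1 hsa
  obtain ⟨y, hy, h⟩ := app4745_trans hΩ P (c • α) (c • β)
  have h1 : (c * s * c⁻¹) • c • α = c • α := by rw [← mul_smul, inv_mul_cancel_right, mul_smul, hα]
  have h2 : (c * s * c⁻¹) • c • β = c • β := by rw [← mul_smul, inv_mul_cancel_right, mul_smul, hβ]
  have h3 : y⁻¹ • c • α = y • c • α :=
    calc y⁻¹ • c • α = (c * s * c⁻¹ * y * (c * s * c⁻¹)⁻¹) • (c * s * c⁻¹) • c • α := by
          rw [ha y hy, h1]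
      _ = (c * s * c⁻¹) • y • c • α := by
          rw [← mul_smul, inv_mul_cancel_right, mul_smul _ y]
      _ = _ := by rw [h, h2]
  have h4 : y * y = 1 := app4745_eq_one hΩ P (Subgroup.le_centralizer _ (mul_mem hy hy))
    (α := c • α) (by rw [mul_smul, ← h3, smul_inv_smul])
  have h5 : y = 1 := by
    obtain ⟨k, hk⟩ := exists_orderOf_eq_pow_of_mem P.isPGroup' hy
    rw [← orderOf_eq_one_iff]
    exact Nat.eq_one_of_dvd_coprimes
      (((Nat.coprime_primes hp.out Nat.prime_two).2 hp2).pow_left k) hk.dvd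
      (orderOf_dvd_of_pow_eq_one (by rw [sq, h4]))
  rw [h5, one_smul] at h
  exact smul_left_cancel c h

theorem app4745_prod [FTthm.{u}] {a b : G} (ha : orderOf a = 2) (hb : orderOf b = 2) {α β : Ω}
    (hα : a • α = α) (hβ : b • β = β) (hne : α ≠ β) (γ : Ω) : (a * b) • γ ≠ γ := by
  intro hγ
  have := Fact.mk Nat.prime_two
  have h2p := app4745_h2p hC
  have huniq := @app4745_fix_unique _ _ _ _ _ _ _ _ _ hΩ _ hp2 hC hno
  have hsq : ∀ s : G, orderOf s = 2 → s * s = 1 := fun s hs => by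
    rw [← sq, ← hs, pow_orderOf_eq_one]
  have hinv : ∀ s : G, orderOf s = 2 → s⁻¹ = s := fun s hs =>
    inv_eq_of_mul_eq_one_right (hsq s hs)
  have hCs : ∀ s : G, orderOf s = 2 → ¬ p ∣ Nat.card (Subgroup.centralizer ({s} : Set G)) :=
    fun s hs => not_dvd_card_centralizer_of_orderOf_ne hp.out Nat.prime_two hp2 h2p hs.symm.dvd
  have hfree : ∀ s : G, orderOf s = 2 → ∀ S : Subgroup G, IsPGroup p S →
      s ∈ Subgroup.normalizer (S : Set G) → ∀ y ∈ S, s * y * s⁻¹ = y⁻¹ := by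
    intro s hs S hS hsS y hy
    refine conj_eq_inv_of_fixedPointFree hsS (by rw [hsq s hs]; exact one_mem _) ?_ hy
    intro n hn h
    obtain ⟨k, hk⟩ := exists_orderOf_eq_pow_of_mem hS hn
    rcases k with _ | k
    · exact orderOf_eq_one_iff.1 hk
    · refine absurd (dvd_trans ?_ (Subgroup.orderOf_dvd_natCard _
        (Subgroup.mem_centralizer_singleton_iff.2 h.symm))) (hCs s hs)
      rw [hk]; exact dvd_pow_self _ k.succ_ne_zero
  set x := a * b with hx
  have hbx : b = a⁻¹ * x := by rw [hx, inv_mul_cancel_left]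
  have hx1 : x ≠ 1 := fun h => hne (huniq ha hα (by
    rw [h, mul_one, hinv a ha] at hbx
    rw [← hbx, hβ]))
  set C := Subgroup.centralizer ({x} : Set G) with hCx
  have hnorm : ∀ s t : G, orderOf s = 2 → orderOf t = 2 → s * t = x →
      s * x * s⁻¹ = x⁻¹ ∧ s ∈ Subgroup.normalizer (C : Set G) := by
    intro s t hs ht hst
    have h1 : s * x * s⁻¹ = x⁻¹ := by
      rw [← hst, ← mul_assoc, hsq s hs, one_mul, mul_inv_rev, hinv t ht]
    refine ⟨h1, ?_⟩
    rw [← conj_smul_eq_iff_mem_normalizer, hCx, ← centralizer_conj_singleton, h1]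
    ext g
    simp only [Subgroup.mem_centralizer_singleton_iff]
    exact Commute.inv_right_iff
  obtain ⟨hax, haC⟩ := hnorm a b ha hb rfl
  have hodd : ¬ 2 ∣ Nat.card C := by
    intro h
    obtain ⟨z, hz, hza, hz2⟩ := app4745_exists_mem_centralizer
      (isPGroup_zpowers_iff.2 ⟨1, ha.trans (pow_one 2).symm⟩) (Subgroup.zpowers_le.2 haC) h
    obtain ⟨δ, hδ⟩ := app4745_exists_fix hΩ hp2 hz2
    have h1 : ∀ g : G, z * g = g * z → g • δ = δ := fun g hg =>
      huniq hz2 (by rw [← mul_smul, hg, mul_smul, hδ]) hδ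
    have h2 := h1 a (Subgroup.mem_centralizer_iff.1 hza a (Subgroup.mem_zpowers a)).symm
    have h3 := h1 x (Subgroup.mem_centralizer_singleton_iff.1 hz)
    refine hne ((huniq ha hα h2).trans (huniq hb ?_ hβ))
    rw [hbx, mul_smul, h3, inv_smul_eq_iff, h2]
  have hcop : (Nat.card C).Coprime 2 := (Nat.prime_two.coprime_iff_not_dvd.2 hodd).symm
  have hpC : p ∣ Nat.card C := by
    refine (app4745_dvd_count hp.out hno (hCs a ha) (hCs b hb) x).trans ?_
    let T := {q : G × G // IsConj a q.1 ∧ IsConj b q.2 ∧ q.1 * q.2 = x}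
    let : MulAction C T :=
      { smul := fun k q => ⟨(k * q.1.1 * (k : G)⁻¹, k * q.1.2 * (k : G)⁻¹),
          q.2.1.trans (isConj_iff.2 ⟨k, rfl⟩), q.2.2.1.trans (isConj_iff.2 ⟨k, rfl⟩), by
            calc _ = k * (q.1.1 * q.1.2) * (k : G)⁻¹ := by group
              _ = x := by
                rw [q.2.2.2, Subgroup.mem_centralizer_singleton_iff.1 k.2, mul_inv_cancel_right]⟩
        one_smul := fun q => Subtype.ext (Prod.ext
          (show (1 : G) * q.1.1 * 1⁻¹ = _ by group) (show (1 : G) * q.1.2 * 1⁻¹ = _ by group))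
        mul_smul := fun k l q => Subtype.ext (Prod.ext
          (show (k : G) * l * q.1.1 * (k * l : G)⁻¹ = k * (l * q.1.1 * (l : G)⁻¹) * (k : G)⁻¹
            by group)
          (show (k : G) * l * q.1.2 * (k * l : G)⁻¹ = k * (l * q.1.2 * (l : G)⁻¹) * (k : G)⁻¹
            by group)) }
    have ho : ∀ s t : G, IsConj s t → orderOf s = 2 → orderOf t = 2 := fun s t h hs => by
      obtain ⟨c, rfl⟩ := isConj_iff.1 h
      rw [← hs]; exact (MulAut.conj c).orderOf_eq s
    have : MulAction.IsPretransitive C T := ⟨fun q q' => by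
      have h1 := ho _ _ q.2.1 ha
      have h2 := ho _ _ q'.2.1 ha
      obtain ⟨h3, h4⟩ := hnorm _ _ h1 (ho _ _ q.2.2.1 hb) q.2.2.2
      obtain ⟨h5, -⟩ := hnorm _ _ h2 (ho _ _ q'.2.2.1 hb) q'.2.2.2
      obtain ⟨k, hk, hk'⟩ := exists_conj_eq_of_coprime_orderOf (K := C) (y := q'.1.1) h4 (by
        rw [Subgroup.mem_centralizer_singleton_iff, hinv _ h1]
        calc _ = q'.1.1 * (q.1.1 * x * q.1.1⁻¹) * q.1.1 := by group
          _ = (q'.1.1 * x * q'.1.1⁻¹)⁻¹ * (q'.1.1 * q.1.1) := by rw [h3]; group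
          _ = _ := by rw [h5, inv_inv]) (by rwa [h1]) (by rwa [h2])
      refine ⟨⟨k, hk⟩, Subtype.ext (Prod.ext hk'.symm ?_)⟩
      change k * q.1.2 * k⁻¹ = q'.1.2
      rw [← mul_left_cancel_iff (a := q'.1.1), q'.2.2.2, hk']
      calc _ = k * (q.1.1 * q.1.2) * k⁻¹ := by group
        _ = x := by
          rw [q.2.2.2, Subgroup.mem_centralizer_singleton_iff.1 hk, mul_inv_cancel_right]⟩
    rw [← MulAction.index_stabilizer_of_transitive C
      (⟨(a, b), IsConj.refl _, IsConj.refl _, rfl⟩ : T)]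
    exact Subgroup.index_dvd_card _
  obtain ⟨T, -, hTC, hT, hTi, hTa⟩ := exists_le_invariant_sylow (p := p) (A := Subgroup.zpowers a)
    (R := ⊥) (Subgroup.zpowers_le.2 haC) (by rwa [Nat.card_zpowers, ha])
    (Or.inr (isSolvable_zpowers a)) bot_le IsPGroup.of_bot
    (by rw [Subgroup.normalizer_eq_top]; exact le_top)
  obtain ⟨y, hyT, hy1⟩ : ∃ y ∈ T, y ≠ 1 := by
    by_contra h
    push Not at h
    rw [(Subgroup.eq_bot_iff_forall T).2 h, Subgroup.relIndex_bot_left] at hTi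
    exact hTi hpC
  have hay := hfree a ha T hT (hTa (Subgroup.mem_zpowers a)) y hyT
  have hyp := exists_orderOf_eq_pow_of_mem hT hyT
  obtain ⟨P, hP⟩ := (isPGroup_zpowers_iff.2 hyp).exists_le_sylow
  have hy := hP (Subgroup.mem_zpowers y)
  obtain ⟨t, -, ht⟩ := exists_conj_inverting_sylow hp2 h2p hno ha P
  have := isMulCommutative_of_forall_conj_eq_inv ht
  have haP := app4745_mem_normalizer hΩ P hy (hC y hy1 hyp) hay
  have hxP : x ∈ Subgroup.normalizer ((P : Subgroup G) : Set G) :=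
    app4745_centralizer_le_normalizer hΩ P hy (hC y hy1 hyp)
      (Subgroup.mem_centralizer_singleton_iff.2
        (Subgroup.mem_centralizer_singleton_iff.1 (hTC hyT)).symm)
  refine hx1 (app4745_eq_one hΩ P (Subgroup.mem_centralizer_iff.2 fun w hw => ?_) hγ)
  have h1 := hfree b hb P P.isPGroup' (hbx ▸ mul_mem (inv_mem haP) hxP) w hw
  have h2 := hfree a ha P P.isPGroup' haP _ (inv_mem hw)
  calc w * x = (a * w⁻¹ * a⁻¹) * (a * b) := by rw [h2, inv_inv]
    _ = x * w := by rw [← h1, hx]; group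

theorem app4745_normal [FTthm.{u}] (h2G : 2 ∣ Nat.card G) (P : Sylow p G) :
    (P : Subgroup G).Normal := by
  have := Fact.mk Nat.prime_two
  obtain ⟨s₀, hs₀⟩ := exists_prime_orderOf_dvd_card' 2 h2G
  obtain ⟨t, hst, ht⟩ := exists_conj_inverting_sylow hp2 (app4745_h2p hC) hno hs₀ P
  have ho : ∀ s t : G, IsConj s t → orderOf s = 2 → orderOf t = 2 := fun s t h hs => by
    obtain ⟨c, rfl⟩ := isConj_iff.1 h
    rw [← hs]; exact (MulAut.conj c).orderOf_eq s
  have ht2 := ho _ _ hst hs₀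
  have := isMulCommutative_of_forall_conj_eq_inv ht
  have hsq : ∀ s : G, orderOf s = 2 → s * s = 1 := fun s hs => by
    rw [← sq, ← hs, pow_orderOf_eq_one]
  have hinv : t⁻¹ = t := inv_eq_of_mul_eq_one_right (hsq t ht2)
  have htP : t ∉ (P : Subgroup G) := fun h => by
    obtain ⟨k, hk⟩ := exists_orderOf_eq_pow_of_mem P.isPGroup' h
    exact hp2 ((Nat.prime_dvd_prime_iff_eq Nat.prime_two hp.out).1
      (Nat.prime_two.dvd_of_dvd_pow (ht2.symm.trans hk).dvd)).symm
  have hrefl : ∀ y ∈ (P : Subgroup G), orderOf (y * t) = 2 := fun y hy =>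
    orderOf_eq_prime (by
      rw [sq, mul_assoc, ← mul_assoc t]
      nth_rewrite 2 [← hinv]
      rw [ht y hy, mul_inv_cancel]) fun h => htP (by
        rw [eq_inv_of_mul_eq_one_right h]; exact inv_mem hy)
  have key : ∀ s : G, orderOf s = 2 → s * t ∈ (P : Subgroup G) := by
    intro s hs
    obtain ⟨γ, hγ⟩ := app4745_exists_fix hΩ hp2 hs
    obtain ⟨y₀, hy₀, h₀⟩ := app4745_trans hΩ P (t • γ) γ
    suffices h : s = y₀ * t by rw [h, mul_assoc, hsq t ht2, mul_one]; exact hy₀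
    refine eq_of_smul_eq_smul fun β : Ω => ?_
    obtain ⟨y, hy, h⟩ := app4745_trans hΩ P (t • β) (s • β)
    obtain ⟨δ, hδ⟩ := app4745_exists_fix hΩ hp2 (hrefl y hy)
    have h1 : γ = δ := by
      by_contra hne
      refine app4745_prod hΩ hp2 hC hno hs (hrefl y hy) hγ hδ hne β ?_
      rw [mul_smul, mul_smul, h, ← mul_smul, hsq s hs, one_smul]
    subst h1
    have h2 := app4745_eq_one hΩ P (g := y⁻¹ * y₀) (α := t • γ)
      (Subgroup.le_centralizer _ (mul_mem (inv_mem hy) hy₀)) (by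
        rw [mul_smul, h₀, inv_smul_eq_iff, ← mul_smul, hδ])
    rw [inv_mul_eq_one] at h2
    rw [← h2, mul_smul, h]
  refine ⟨fun y hy g => ?_⟩
  have h1 := key _ (ho _ (g * (y * t) * g⁻¹) (isConj_iff.2 ⟨g, rfl⟩) (hrefl y hy))
  have h2 := key _ (ho _ (g * t * g⁻¹) (isConj_iff.2 ⟨g, rfl⟩) ht2)
  have h3 := mul_mem h1 (inv_mem h2)
  rwa [show g * (y * t) * g⁻¹ * t * (g * t * g⁻¹ * t)⁻¹ = g * y * g⁻¹ by group] at h3

end perm

theorem app4745 [FTthm.{u}] {Ω : Type v} [MulAction G Ω] [FaithfulSMul G Ω] [Fintype Ω]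
    (htr : MulAction.IsPretransitive G Ω) (p : ℕ) [Fact p.Prime] (hp2 : p ≠ 2)
    (hpG : p ∣ Nat.card G) (h2G : 2 ∣ Nat.card G)
    (hC : ∀ g : G, g ≠ 1 → (∃ k : ℕ, orderOf g = p ^ k) →
      Odd (Nat.card (Subgroup.centralizer ({g} : Set G)))) (r : ℕ)
    (hΩ : Fintype.card Ω = p ^ r) :
    (∃ χ : IrrCharacter G, (charDegree χ.1).factorization p = (Nat.card G).factorization p) ∨
      (IsPSolvable p G ∧ ∃ χ : IrrCharacter G,
        (charDegree χ.1).factorization 2 = (Nat.card G).factorization 2) := by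
  rw [or_iff_not_imp_left]
  intro hno
  have := Fact.mk Nat.prime_two
  obtain ⟨P⟩ := (inferInstance : Nonempty (Sylow p G))
  have := app4745_normal (Nat.card_eq_fintype_card.trans hΩ) hp2 hC hno h2G P
  have hs : IsPSolvable p G := IsPSolvable.extension (N := (P : Subgroup G))
    (IsPSolvable.of_isPGroup P.isPGroup') (IsPSolvable.of_not_dvd P.not_dvd_index)
  exact ⟨hs, (Cfsg.Agent.S4743.result p 2 hp2 hpG h2G (fun g h1 h2 h3 =>
    (Nat.not_even_iff_odd.2 (hC g h1 h2)) (even_iff_two_dvd.2 h3)) (Or.inl hs)).resolve_left hno⟩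

end Cfsg.FT
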